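import Cfsg.Agent.BinarySuzuki.Common
import Cfsg.Agent.Suzuki.Classification

/-!
The groups of proper subfields.
-/

set_option autoImplicit false

namespace CfsgLib.BinarySuzuki

open CfsgLib.Suzuki CfsgLib.BinaryPSL

variable {F : Type*} [Field F] [CharP F 2] [Finite F] {θ : F →+* F}

theorem mem_of_sq_mem {K : Subfield F} {x : F} (h : x ^ 2 ∈ K) : x ∈ K := by
  classical
  let f : K → K := fun z => z ^ 2
  have hf : Function.Injective f := fun a b e =>
    Subtype.ext (sq_injective' (congrArg Subtype.val e : ((a : F)) ^ 2 = (b : F) ^ 2))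
  obtain ⟨z, hz⟩ := Finite.injective_iff_surjective.1 hf ⟨x ^ 2, h⟩
  rw [← show (z : F) = x from sq_injective' (congrArg Subtype.val hz)]
  exact z.2

theorem eq_tElt_of_good (hT : TitsEndo θ) {K : Subfield F} (hK : ∀ x ∈ K, θ x ∈ K) {t : Fˣ}
    (ht : (t : F) ^ 2 * θ t ∉ K) {x : grp θ} (hx : IsGood hT K x)
    (hxt : IsGood hT K ((tElt hT t)⁻¹ * x * tElt hT t)) : ∃ s, x = tElt hT s := by
  have hθt : θ (t : F) ∉ K := fun h => ht (mul_mem (hT.sq (t : F) ▸ hK _ h) h)
  have ht2 : (t : F) ^ 2 ∉ K := fun h => hθt (hK _ (mem_of_sq_mem h))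
  have hμ0 : (t : F) ^ 2 * θ t ≠ 0 :=
    mul_ne_zero (pow_ne_zero 2 t.ne_zero) ((map_ne_zero θ).2 t.ne_zero)
  have hback : tElt hT t * ((tElt hT t)⁻¹ * x * tElt hT t) * (tElt hT t)⁻¹ = x := by group
  have hfix : ∀ (z : grp θ), (tElt hT t * z * (tElt hT t)⁻¹) • (pInf : Projectivization F (Fin 4 → F)) =
      tElt hT t • z • pInf := fun z => by
    rw [mul_smul, mul_smul,
      show (tElt hT t)⁻¹ • (pInf : Projectivization F (Fin 4 → F)) = pInf from
        inv_smul_eq_iff.2 (show tElt hT t • (pInf : Projectivization F (Fin 4 → F)) = pInf from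
          tMat_smul_pInf θ t).symm]
  have hw : ∀ c e : F, ∀ s : Fˣ, (wElt hT * (uElt hT c e * tElt hT s)) •
      (pInf : Projectivization F (Fin 4 → F)) = pt θ 0 0 := fun c e s => by
    rw [mul_smul, mul_smul, show tElt hT s • (pInf : Projectivization F (Fin 4 → F)) = pInf from
      tMat_smul_pInf θ s, uElt_smul_pInf]
    exact wMat_smul_pInf θ
  have hsmall : ∀ (a b : F) (s : Fˣ), (uElt hT a b * tElt hT s) •
      (pInf : Projectivization F (Fin 4 → F)) = pInf := fun a b s => by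
    rw [mul_smul, show tElt hT s • (pInf : Projectivization F (Fin 4 → F)) = pInf from
      tMat_smul_pInf θ s, uElt_smul_pInf]
  have htpt : ∀ a b, tElt hT t • pt θ a b = pt θ (θ t * a) ((t : F) ^ 2 * θ t * b) := fun a b =>
    tMat_smul_pt θ hT.sq t a b
  rcases hxt with ⟨a', b', s', ha', hb', hs', e'⟩ | ⟨a', b', c', d', s', ha', hb', hc', hd', hs', e'⟩
  · have hx' : x = uElt hT (θ t * a') ((t : F) ^ 2 * θ t * b') * tElt hT s' := by
      rw [← hback, e', ← tElt_conj_uElt,
        show tElt hT t * (uElt hT a' b' * tElt hT s') * (tElt hT t)⁻¹ =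
          tElt hT t * uElt hT a' b' * (tElt hT t)⁻¹ * (tElt hT t * tElt hT s' * (tElt hT t)⁻¹) by group,
        tElt_inv, tElt_mul, tElt_mul, show t * s' * t⁻¹ = s' by rw [mul_comm t s', mul_inv_cancel_right]]
    rcases hx with ⟨a, b, s, ha, hb, hs, e⟩ | ⟨a, b, c, d, s, ha, hb, hc, hd, hs, e⟩
    · obtain ⟨h1, h2, -⟩ := eq_of_mul_eq hT (e.symm.trans hx')
      have ha0 : a' = 0 := by
        by_contra h
        exact hθt (by rw [show θ (t : F) = a / a' by rw [h1]; field_simp]; exact div_mem ha ha')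
      have hb0 : b' = 0 := by
        by_contra h
        exact ht (by rw [show (t : F) ^ 2 * θ t = b / b' by rw [h2]; field_simp]; exact div_mem hb hb')
      exact ⟨s', by rw [hx', ha0, hb0, mul_zero, mul_zero, uElt_zero, one_mul]⟩
    · exfalso
      have h := congrArg (fun g : grp θ => g • (pInf : Projectivization F (Fin 4 → F))) (e.symm.trans hx')
      simp only [hsmall] at h
      rw [mul_assoc, mul_smul, hw, uElt_smul_pt_zero] at h
      exact pt_ne_pInf θ a b h
  · exfalso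
    have hxp : x • (pInf : Projectivization F (Fin 4 → F)) =
        pt θ (θ t * a') ((t : F) ^ 2 * θ t * b') := by
      rw [← hback, hfix, e', mul_assoc, mul_smul, hw, uElt_smul_pt_zero, htpt]
    rcases hx with ⟨a, b, s, ha, hb, hs, e⟩ | ⟨a, b, c, d, s, ha, hb, hc, hd, hs, e⟩
    · rw [e, hsmall] at hxp
      exact pt_ne_pInf θ _ _ hxp.symm
    · rw [e, mul_assoc, mul_smul, hw, uElt_smul_pt_zero, pt_inj] at hxp
      obtain ⟨h1, h2⟩ := hxp
      have htw : wElt hT * tElt hT t = tElt hT t⁻¹ * wElt hT := by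
        rw [← wElt_tElt_wElt hT t, mul_assoc, wElt_mul_self, mul_one]
      have hx2 : uElt hT a b * wElt hT * (uElt hT c d * tElt hT s) =
          uElt hT a b * wElt hT * ((tElt hT t⁻¹ * uElt hT c' d' * (tElt hT t⁻¹)⁻¹) *
            (tElt hT t⁻¹ * tElt hT s' * (tElt hT t)⁻¹)) := by
        rw [← e, ← hback, e', h1, h2, ← tElt_conj_uElt]
        calc _ = tElt hT t * uElt hT a' b' * (tElt hT t)⁻¹ * (tElt hT t * wElt hT) *
              (uElt hT c' d' * tElt hT s' * (tElt hT t)⁻¹) := by group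
          _ = tElt hT t * uElt hT a' b' * (tElt hT t)⁻¹ * (wElt hT * tElt hT t⁻¹) *
              (uElt hT c' d' * tElt hT s' * (tElt hT t)⁻¹) := by
            congr 2
            calc tElt hT t * wElt hT = tElt hT t⁻¹⁻¹ * wElt hT := by rw [inv_inv]
              _ = wElt hT * tElt hT t⁻¹ := by
                rw [← wElt_tElt_wElt hT t⁻¹, mul_assoc, wElt_mul_self, mul_one]
          _ = _ := by group
      rw [mul_right_inj, tElt_conj_uElt, tElt_inv, tElt_mul, tElt_mul] at hx2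
      obtain ⟨-, -, h3⟩ := eq_of_mul_eq hT hx2
      refine ht2 ?_
      have h4 : (t : F) ^ 2 = s' / s := by
        rw [h3, Units.val_mul, Units.val_mul, Units.val_inv_eq_inv_val]
        field_simp
      rw [h4]
      exact div_mem hs' hs

theorem not_isBinary_good (hT : TitsEndo θ) {K : Subfield F} (hK : ∀ x ∈ K, θ x ∈ K)
    (hlt : ∃ l, l ∉ K) {H : Subgroup (grp θ)} (hH : ∀ g, g ∈ H ↔ IsGood hT K g) : ¬ IsBinary H := by
  obtain ⟨l, hl⟩ := hlt
  have hl' : 1 + l ∉ K := fun h => hl (by simpa [← add_assoc, CharTwo.add_self_eq_zero] using add_mem (one_mem K) h)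
  have h01 : uElt hT 0 1 ∈ H := (hH _).2 (Or.inl ⟨0, 1, 1, zero_mem K, one_mem K,
    by simp [one_mem], by rw [tElt_one, mul_one]⟩)
  obtain ⟨t, ht⟩ := mu_surjective hT (b := l) (fun e => hl (e ▸ zero_mem K))
  obtain ⟨s, hs⟩ := mu_surjective hT (b := 1 + l) (fun e => hl' (e ▸ zero_mem K))
  have conj01 : ∀ r : Fˣ, tElt hT r * uElt hT 0 1 * (tElt hT r)⁻¹ =
      uElt hT 0 ((r : F) ^ 2 * θ r) := fun r => by rw [tElt_conj_uElt, mul_zero, mul_one]
  have hbc : uElt hT 0 l * uElt hT 0 (1 + l) = uElt hT 0 1 := by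
    rw [uElt_mul, uElt_inj]
    exact ⟨by simp, by rw [map_zero, zero_mul, add_zero]; linear_combination l * (two_eq_zero : (2 : F) = 0)⟩
  refine not_isBinary_of_triple ⟨tElt hT t, trivial, tElt hT s, trivial, uElt hT 0 l,
    uElt hT 0 (1 + l), ?_, ?_, by rw [hbc]; exact h01, ?_⟩
  · rw [← ht, ← conj01]; convert h01 using 1; group
  · rw [← hs, ← conj01]; convert h01 using 1; group
  · intro x hx y hy hxt hys he
    obtain ⟨p, rfl⟩ := eq_tElt_of_good hT hK (ht.symm ▸ hl) ((hH x).1 hx) ((hH _).1 hxt)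
    obtain ⟨q, rfl⟩ := eq_tElt_of_good hT hK (hs.symm ▸ hl') ((hH y).1 hy) ((hH _).1 hys)
    rw [hbc, tElt_mul] at he
    have := (eq_of_mul_eq hT (show uElt hT 0 0 * tElt hT (p * q) = uElt hT 0 1 * tElt hT 1 by
      rw [uElt_zero, one_mul, tElt_one, mul_one, he])).2.1
    exact zero_ne_one this

end CfsgLib.BinarySuzuki
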