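import Cfsg.Agent.BinarySuzuki.Borel
import Cfsg.Agent.BinarySuzuki.Torus
import Cfsg.Agent.BinarySuzuki.Subfield

/-!
The binary coset actions of the group of the ovoid.
-/

set_option autoImplicit false

namespace CfsgLib.BinarySuzuki

open CfsgLib.Suzuki CfsgLib.BinaryPSL

section Positive

variable {G : Type*} [Group G]

theorem isBinary_of_ti {H : Subgroup G} (hexp : ∀ h ∈ H, h * h = 1)
    (hTI : ∀ g h, h ∈ H → h ≠ 1 → g⁻¹ * h * g ∈ H → g ∈ Subgroup.normalizer (H : Set G))
    (hcomm : ∀ g x y, x ∈ H → x ≠ 1 → g⁻¹ * y * g ∈ H → y ≠ 1 → Commute x y →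
      g ∈ Subgroup.normalizer (H : Set G)) : IsBinary H := by
  refine isBinary_of_no_triangle fun g k a b c ha hb hc he ha1 => ?_
  have hsq : ∀ (g b : G), g⁻¹ * b * g ∈ H → b * b = 1 := fun g b hb => by
    have h := congrArg (fun z => g * z * g⁻¹) (hexp _ hb)
    simpa [mul_assoc] using h
  by_cases hb1 : b = 1
  · rw [hb1, one_mul] at he
    exact Or.inr (hTI k a ha ha1 (he ▸ hc))
  · refine Or.inl (hcomm g a b ha ha1 hb hb1 ?_)
    have hbc : Commute b c :=
      commute_of_sq_one (hsq g b hb) (hsq k c hc) (by rw [← he]; exact hexp a ha)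
    rw [he]
    exact ((Commute.refl b).mul_left hbc.symm)

variable {F : Type*} [Field F] {θ : F →+* F} [CharP F 2] [Finite F]

theorem isBinary_cGrp (hT : TitsEndo θ) : IsBinary (cGrp hT) := by
  have hn : ∀ g, g ∈ stabInf θ → g ∈ Subgroup.normalizer (cGrp hT : Set (grp θ)) := fun g hg => by
    rw [Subgroup.mem_normalizer_iff]
    intro x
    refine ⟨conj_mem_cGrp hg, fun h => ?_⟩
    simpa [mul_assoc] using conj_mem_cGrp (inv_mem hg) h
  refine isBinary_of_ti (fun h hh => ?_) (fun g h hh h1 hg => hn g ?_)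
    fun g x y hx hx1 hy hy1 hc => hn g ?_
  · obtain ⟨b, rfl⟩ := mem_cGrp.1 hh
    exact uElt_central_sq hT b
  · exact mem_stabInf_of_conj hT (cGrp_le_uGrp hT hh) h1 (cGrp_le_uGrp hT hg)
  · obtain ⟨b, rfl⟩ := mem_cGrp.1 hx
    have hb : b ≠ 0 := fun e => hx1 (by rw [e, uElt_zero])
    exact mem_stabInf_of_conj hT (mem_uGrp_of_commute hT hb hc.symm) hy1 (cGrp_le_uGrp hT hy)

end Positive

section Main

variable {F : Type*} [Field F] [Fintype F] [CharP F 2] {m : ℕ}

theorem le_stabInf_conj (hT : TitsEndo (theta F m)) {H : Subgroup (grp (theta F m))}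
    {P : Sylow 2 (grp (theta F m))}
    (hH : H ≤ Subgroup.normalizer ((P : Subgroup (grp (theta F m))) : Set (grp (theta F m)))) :
    ∃ y, H.map (MulAut.conj y⁻¹).toMonoidHom ≤ stabInf (theta F m) := by
  obtain ⟨y, rfl⟩ := MulAction.exists_smul_eq (grp (theta F m)) (uSylow hT) P
  refine ⟨y, fun x hx => ?_⟩
  have h := hH (mem_map_conj.1 hx)
  rw [show ((y • uSylow hT : Sylow 2 (grp (theta F m))) : Subgroup (grp (theta F m))) =
      (uGrp hT).map (MulAut.conj y).toMonoidHom from rfl, ← Subgroup.map_equiv_normalizer_eq,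
    normalizer_uGrp, mem_map_conj] at h
  simpa [mul_assoc] using h

theorem kind_bound (hm : 1 ≤ m) (hF : Fintype.card F = 2 ^ (2 * m + 1)) {k e : ℕ}
    (hk : k ≤ 2 ^ (2 * m + 1) + 2 ^ (m + 1) + 1) (he : e ≤ 4) : k * e < Nat.card F ^ 2 := by
  rw [Nat.card_eq_fintype_card, hF]
  have h1 : 2 * 2 ^ (m + 1) ≤ 2 ^ (2 * m + 1) := by
    rw [← pow_succ']; exact Nat.pow_le_pow_right (by norm_num) (by omega)
  have h2 : 8 ≤ 2 ^ (2 * m + 1) := by
    calc 8 = 2 ^ 3 := by norm_num
      _ ≤ _ := Nat.pow_le_pow_right (by norm_num) (by omega)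
  generalize 2 ^ (2 * m + 1) = q at *
  generalize 2 ^ (m + 1) = r at *
  calc k * e ≤ (q + r + 1) * 4 := Nat.mul_le_mul hk he
    _ < q ^ 2 := by nlinarith

theorem isBinary_iff (hm : 1 ≤ m) (hF : Fintype.card F = 2 ^ (2 * m + 1))
    (H : Subgroup (grp (theta F m))) (hH : H ≠ ⊤) :
    IsBinary H ↔ H = ⊥ ∨ IsCentre (titsEndo_theta hm hF) H := by
  set hT := titsEndo_theta hm hF
  constructor
  · intro hb
    by_contra hcon
    push Not at hcon
    obtain ⟨h0, hZ⟩ := hcon
    rcases subgroup_cases hm hF H hH with ⟨P, hP⟩ | ⟨g, hg1, hgU, hg⟩ | ⟨y, K, hK2, hKlt, hK⟩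
    · obtain ⟨y, hy⟩ := le_stabInf_conj hT hP
      refine not_isBinary_of_le_stabInf hm hF hy (map_conj_ne_bot h0 _) (fun e => hZ ⟨y, ?_⟩)
        ((isBinary_conj_iff _).2 hb)
      rw [← e]
      ext x
      rw [mem_map_conj, mem_map_conj]
      simp [mul_assoc]
    · obtain ⟨C, hC0, -, hC1, hC2, hcov⟩ := exists_kinds hm hF
      obtain ⟨i, x, hix⟩ := hcov g hg1 hgU
      rw [hix] at hg
      fin_cases i
      · exact not_isBinary_of_le_normalizer hm hF (hC0.map x)
          (kind_bound hm hF ((Nat.sub_le _ _).trans (le_add_right (le_add_right le_rfl))) (by norm_num)) hg h0 hb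
      · exact not_isBinary_of_le_normalizer hm hF (hC1.map x)
          (kind_bound hm hF le_rfl le_rfl) hg h0 hb
      · exact not_isBinary_of_le_normalizer hm hF (hC2.map x)
          (kind_bound hm hF (Nat.add_le_add_right ((Nat.sub_le _ _).trans (Nat.le_add_right _ _)) 1) le_rfl) hg h0 hb
    · refine not_isBinary_good hT (theta_mem_subfield K) ?_ (H := H.map (MulAut.conj y⁻¹).toMonoidHom)
        (fun g => ?_) ((isBinary_conj_iff _).2 hb)
      · by_contra h
        push Not at h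
        have : Nat.card K = Nat.card F :=
          Nat.card_congr ((Equiv.subtypeEquivRight fun x => iff_of_true (h x) trivial).trans
            (Equiv.Set.univ F))
        omega
      · rw [mem_map_conj, inv_inv]
        exact hK g
  · rintro (rfl | ⟨g, rfl⟩)
    · exact isBinary_bot
    · exact (isBinary_conj_iff g).2 (isBinary_cGrp hT)

/-- Centres of Sylow 2-subgroups. -/
theorem isCentre_iff (hm : 1 ≤ m) (hF : Fintype.card F = 2 ^ (2 * m + 1))
    (H : Subgroup (grp (theta F m))) :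
    IsCentre (titsEndo_theta hm hF) H ↔ ∃ P : Sylow 2 (grp (theta F m)),
      H = (Subgroup.center (P : Subgroup (grp (theta F m)))).map
        (P : Subgroup (grp (theta F m))).subtype := by
  set hT := titsEndo_theta hm hF
  have key : ∀ g : grp (theta F m), (cGrp hT).map (MulAut.conj g).toMonoidHom =
      (Subgroup.center ((g • uSylow hT : Sylow 2 (grp (theta F m))) : Subgroup (grp (theta F m)))).map
        ((g • uSylow hT : Sylow 2 (grp (theta F m))) : Subgroup (grp (theta F m))).subtype := by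
    intro g
    rw [show ((g • uSylow hT : Sylow 2 (grp (theta F m))) : Subgroup (grp (theta F m))) =
      (uGrp hT).map (MulAut.conj g).toMonoidHom from rfl]
    ext x
    rw [mem_map_conj]
    constructor
    · intro hx
      have hxU := cGrp_le_uGrp hT hx
      refine ⟨⟨x, mem_map_conj.2 hxU⟩, Subgroup.mem_center_iff.2 fun ⟨z, hz⟩ => Subtype.ext ?_, rfl⟩
      obtain ⟨b, hb⟩ := mem_cGrp.1 hx
      obtain ⟨a, c, hac⟩ := mem_map_conj.1 hz
      have h := uElt_central hT a c b
      rw [← hac, ← hb] at h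
      show z * x = x * z
      have h' := congrArg (fun w => g * w * g⁻¹) h
      simpa [mul_assoc] using h'
    · rintro ⟨⟨z, hz⟩, hzc, rfl⟩
      show g⁻¹ * z * g ∈ cGrp hT
      have hzU : g⁻¹ * z * g ∈ uGrp hT := mem_map_conj.1 hz
      have hcen : (⟨_, hzU⟩ : uGrp hT) ∈ Subgroup.center (uGrp hT) := by
        refine Subgroup.mem_center_iff.2 fun ⟨u, hu⟩ => Subtype.ext ?_
        have hgu : g * u * g⁻¹ ∈ (uGrp hT).map (MulAut.conj g).toMonoidHom := by
          rw [mem_map_conj]; simpa [mul_assoc] using hu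
        have h := congrArg Subtype.val (Subgroup.mem_center_iff.1 hzc ⟨_, hgu⟩)
        simp only [Subgroup.coe_mul] at h ⊢
        calc u * (g⁻¹ * z * g) = g⁻¹ * (g * u * g⁻¹ * z) * g := by group
          _ = g⁻¹ * z * g * u := by rw [h]; group
      rw [center_eq] at hcen
      obtain ⟨b, hb⟩ := hcen
      exact mem_cGrp.2 ⟨b, congrArg Subtype.val hb⟩
  constructor
  · rintro ⟨g, rfl⟩
    exact ⟨_, key g⟩
  · rintro ⟨P, rfl⟩
    obtain ⟨g, rfl⟩ := MulAction.exists_smul_eq (grp (theta F m)) (uSylow hT) P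
    exact ⟨g, (key g).symm⟩

theorem binary_or_centre_of_equiv (hm : 1 ≤ m) (hF : Fintype.card F = 2 ^ (2 * m + 1))
    {G : Type*} [Group G] (ψ : G ≃* grp (theta F m)) (H : Subgroup G) (hH : H ≠ ⊤) :
    IsBinary H ↔ H = ⊥ ∨ ∃ P : Sylow 2 G,
      H = (Subgroup.center (P : Subgroup G)).map (P : Subgroup G).subtype := by
  have hH' : H.map ψ.toMonoidHom ≠ ⊤ := fun e => hH (Subgroup.map_injective (f := ψ.toMonoidHom)
    ψ.injective (by rw [e, Subgroup.map_top_of_surjective _ ψ.surjective]))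
  rw [← isBinary_map_iff ψ, isBinary_iff hm hF _ hH', isCentre_iff hm hF,
    Subgroup.map_eq_bot_iff_of_injective _ ψ.injective]
  refine or_congr_right ?_
  haveI : Finite G := Finite.of_equiv _ ψ.symm.toEquiv
  have key : ∀ (P : Subgroup G),
      ((Subgroup.center P).map P.subtype).map ψ.toMonoidHom =
        (Subgroup.center (P.map ψ.toMonoidHom)).map (P.map ψ.toMonoidHom).subtype := by
    intro P
    ext x
    constructor
    · rintro ⟨_, ⟨⟨z, hz⟩, hzc, rfl⟩, rfl⟩
      refine ⟨⟨ψ z, Subgroup.mem_map_of_mem _ hz⟩, Subgroup.mem_center_iff.2 ?_, rfl⟩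
      rintro ⟨_, w, hw, rfl⟩
      refine Subtype.ext ?_
      show ψ w * ψ z = ψ z * ψ w
      rw [← map_mul, ← map_mul]
      exact congrArg ψ (congrArg Subtype.val (Subgroup.mem_center_iff.1 hzc ⟨w, hw⟩))
    · rintro ⟨⟨_, z, hz, rfl⟩, hzc, rfl⟩
      refine ⟨z, ⟨⟨z, hz⟩, Subgroup.mem_center_iff.2 fun w => Subtype.ext (ψ.injective ?_), rfl⟩, rfl⟩
      show ψ ((w : G) * z) = ψ (z * (w : G))
      rw [map_mul, map_mul]
      exact congrArg Subtype.val (Subgroup.mem_center_iff.1 hzc ⟨ψ w, Subgroup.mem_map_of_mem _ w.2⟩)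
  constructor
  · rintro ⟨P, hP⟩
    obtain ⟨Q, hQ⟩ : ∃ Q : Sylow 2 G, (Q : Subgroup G).map ψ.toMonoidHom = (P : Subgroup _) := by
      refine ⟨P.mapSurjective (f := ψ.symm.toMonoidHom) ψ.symm.surjective, ?_⟩
      show ((P : Subgroup (grp (theta F m))).map ψ.symm.toMonoidHom).map ψ.toMonoidHom = _
      rw [Subgroup.map_map, show ψ.toMonoidHom.comp ψ.symm.toMonoidHom = MonoidHom.id _ from
        MonoidHom.ext ψ.apply_symm_apply, Subgroup.map_id]
    refine ⟨Q, Subgroup.map_injective (f := ψ.toMonoidHom) ψ.injective ?_⟩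
    rw [key, hQ]
    exact hP
  · rintro ⟨Q, rfl⟩
    refine ⟨Q.mapSurjective (f := ψ.toMonoidHom) ψ.surjective, ?_⟩
    rw [key]
    rfl

end Main

end CfsgLib.BinarySuzuki
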