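import Mathlib

/-!
A failure of distributivity among the scalar multiples of an additive subgroup of a finite field of
characteristic two.
-/

set_option autoImplicit false

namespace CfsgLib.BinarySuzuki

variable {F : Type*} [Field F] [Algebra (ZMod 2) F]

/-- The multiple of a subspace by a scalar. -/
def scale (μ : F) (E : Submodule (ZMod 2) F) : Submodule (ZMod 2) F :=
  E.map (LinearMap.mulLeft (ZMod 2) μ)

theorem mem_scale {μ : F} {E : Submodule (ZMod 2) F} {x : F} :
    x ∈ scale μ E ↔ ∃ d ∈ E, μ * d = x := by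
  simp [scale]

/-- The orthogonal for the trace form. -/
noncomputable def orth (E : Submodule (ZMod 2) F) : Submodule (ZMod 2) F :=
  (Algebra.traceForm (ZMod 2) F).orthogonal E

theorem mem_orth {E : Submodule (ZMod 2) F} {x : F} :
    x ∈ orth E ↔ ∀ e ∈ E, Algebra.trace (ZMod 2) F (e * x) = 0 := by
  simp [orth, LinearMap.BilinForm.mem_orthogonal_iff,
    Algebra.traceForm_apply]

theorem orth_sup (A B : Submodule (ZMod 2) F) : orth (A ⊔ B) = orth A ⊓ orth B := by
  ext x
  simp only [Submodule.mem_inf, mem_orth]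
  refine ⟨fun h => ⟨fun e he => h e (Submodule.mem_sup_left he),
    fun e he => h e (Submodule.mem_sup_right he)⟩, fun h e he => ?_⟩
  obtain ⟨u, hu, v, hv, rfl⟩ := Submodule.mem_sup.1 he
  rw [add_mul, map_add, h.1 u hu, h.2 v hv, add_zero]

theorem orth_scale {μ : F} (hμ : μ ≠ 0) (E : Submodule (ZMod 2) F) :
    orth (scale μ E) = scale μ⁻¹ (orth E) := by
  ext x
  rw [mem_orth, mem_scale]
  constructor
  · intro h
    refine ⟨μ * x, mem_orth.2 fun e he => ?_, inv_mul_cancel_left₀ hμ x⟩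
    rw [← mul_assoc, mul_comm e μ]
    exact h _ (mem_scale.2 ⟨e, he, rfl⟩)
  · rintro ⟨d, hd, rfl⟩ _ he
    obtain ⟨e, he', rfl⟩ := mem_scale.1 he
    rw [show μ * e * (μ⁻¹ * d) = e * d by field_simp]
    exact mem_orth.1 hd e he'

variable [Finite F]

theorem orth_orth (E : Submodule (ZMod 2) F) : orth (orth E) = E :=
  LinearMap.BilinForm.orthogonal_orthogonal (traceForm_nondegenerate (ZMod 2) F)
    (Algebra.traceForm_isSymm (ZMod 2)).isRefl E

theorem orth_inf (A B : Submodule (ZMod 2) F) : orth (A ⊓ B) = orth A ⊔ orth B := by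
  rw [← orth_orth (orth A ⊔ orth B), orth_sup, orth_orth, orth_orth]

theorem card_orth (E : Submodule (ZMod 2) F) : Nat.card E * Nat.card (orth E) = Nat.card F := by
  rw [Module.natCard_eq_pow_finrank (K := ZMod 2) (V := E),
    Module.natCard_eq_pow_finrank (K := ZMod 2) (V := orth E),
    Module.natCard_eq_pow_finrank (K := ZMod 2) (V := F), ← pow_add]
  congr 1
  have := LinearMap.BilinForm.finrank_orthogonal (traceForm_nondegenerate (ZMod 2) F) E
  have hle := Submodule.finrank_le E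
  rw [orth]; omega

/-- For a small subspace some multiple meets it trivially and the other avoids a given element. -/
theorem exists_avoid (E : Submodule (ZMod 2) F) {a : F} (ha : a ∈ E) (ha0 : a ≠ 0)
    (hsmall : Nat.card E * Nat.card E ≤ Nat.card F) :
    ∃ l : F, l ≠ 0 ∧ 1 + l ≠ 0 ∧ E ⊓ scale l E = ⊥ ∧ a ∉ scale (1 + l) E := by
  classical
  have : Fintype F := Fintype.ofFinite F
  set S : Finset F := Finset.univ.filter (· ∈ E)
  set S' : Finset F := S.erase 0
  have hS : S.card = Nat.card E := by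
    rw [Nat.card_eq_fintype_card, Fintype.card_subtype]
  have hmem : ∀ x, x ∈ S ↔ x ∈ E := fun x => by simp [S]
  have hS' : S'.card + 1 = S.card :=
    Finset.card_erase_add_one ((hmem 0).2 (zero_mem E))
  set bad : Finset F := (S ×ˢ S').image (fun p => p.1 / p.2) ∪ S'.image (fun e => a / e - 1)
  obtain ⟨l, hl⟩ : ∃ l, l ∉ bad := by
    by_contra h
    push Not at h
    have h1 : bad.card = Nat.card F := by
      rw [Finset.eq_univ_of_forall h, Finset.card_univ, Nat.card_eq_fintype_card]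
    have h2 : bad.card ≤ S.card * S'.card + S'.card :=
      (Finset.card_union_le _ _).trans
        (Nat.add_le_add (Finset.card_image_le.trans_eq (Finset.card_product _ _)) Finset.card_image_le)
    rw [← hS, ← hS'] at hsmall
    rw [← hS'] at h2
    nlinarith
  simp only [bad, Finset.mem_union, Finset.mem_image, Finset.mem_product, not_or, not_exists,
    not_and, S', Finset.mem_erase, hmem, Prod.forall] at hl
  obtain ⟨hl1, hl2⟩ := hl
  have hl0 : l ≠ 0 := fun h => hl1 0 a ⟨zero_mem E, ha0, ha⟩ (by rw [h, zero_div])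
  have h2F : (2 : F) = 0 := by
    have := map_ofNat (algebraMap (ZMod 2) F) 2
    rw [← this, show (2 : ZMod 2) = 0 by decide, map_zero]
  refine ⟨l, hl0, fun h => hl1 a a ⟨ha, ha0, ha⟩ ?_, ?_, ?_⟩
  · rw [div_self ha0]; linear_combination -h + h2F
  · refine (Submodule.eq_bot_iff _).2 fun x hx => ?_
    obtain ⟨hx1, hx2⟩ := Submodule.mem_inf.1 hx
    obtain ⟨d, hd, rfl⟩ := mem_scale.1 hx2
    by_contra h0
    have hd0 : d ≠ 0 := fun e => h0 (by rw [e, mul_zero])
    exact hl1 _ d ⟨hx1, hd0, hd⟩ (by field_simp)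
  · intro h
    obtain ⟨e, he, hae⟩ := mem_scale.1 h
    have he0 : e ≠ 0 := fun z => ha0 (by rw [← hae, z, mul_zero])
    exact hl2 e ⟨he0, he⟩ (by rw [← hae]; field_simp; ring)

/-- Two scalars making the triple of a proper non-zero subspace non-distributive. -/
theorem exists_nondistrib (E : Submodule (ZMod 2) F) (h0 : E ≠ ⊥) (h1 : E ≠ ⊤) :
    ∃ μ ν : F, μ ≠ 0 ∧ ν ≠ 0 ∧
      ∃ a ∈ E ⊓ (scale μ E ⊔ scale ν E), a ∉ E ⊓ scale μ E ⊔ E ⊓ scale ν E := by
  have h2F : (2 : F) = 0 := by
    have := map_ofNat (algebraMap (ZMod 2) F) 2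
    rw [← this, show (2 : ZMod 2) = 0 by decide, map_zero]
  by_cases hsmall : Nat.card E * Nat.card E ≤ Nat.card F
  · obtain ⟨a, ha, ha0⟩ := Submodule.exists_mem_ne_zero_of_ne_bot h0
    obtain ⟨l, hl0, hl1, hbot, hav⟩ := exists_avoid E ha ha0 hsmall
    refine ⟨l, 1 + l, hl0, hl1, a, ⟨ha, ?_⟩, ?_⟩
    · exact Submodule.mem_sup.2 ⟨l * a, mem_scale.2 ⟨a, ha, rfl⟩, (1 + l) * a,
        mem_scale.2 ⟨a, ha, rfl⟩, by linear_combination l * a * h2F⟩
    · rw [hbot, bot_sup_eq]
      exact fun h => hav (Submodule.mem_inf.1 h).2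
  · set D := orth E with hD
    have hcard := card_orth E
    have hDsmall : Nat.card D * Nat.card D ≤ Nat.card F := by
      rw [← hcard]
      have hDE : Nat.card D < Nat.card E := by
        by_contra h
        push Not at h
        exact hsmall ((Nat.mul_le_mul_left _ h).trans_eq hcard)
      exact Nat.mul_le_mul_right _ hDE.le
    have hD0 : D ≠ ⊥ := fun e => h1 (by
      rw [← orth_orth E, ← hD, e]
      exact eq_top_iff.2 fun x _ => mem_orth.2 fun d hd => by
        rw [(Submodule.mem_bot _).1 hd, zero_mul, map_zero])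
    obtain ⟨a, ha, ha0⟩ := Submodule.exists_mem_ne_zero_of_ne_bot hD0
    obtain ⟨l, hl0, hl1, hbot, hav⟩ := exists_avoid D ha ha0 hDsmall
    refine ⟨l⁻¹, (1 + l)⁻¹, inv_ne_zero hl0, inv_ne_zero hl1, ?_⟩
    by_contra hcon
    push Not at hcon
    have heq : E ⊓ scale l⁻¹ E ⊔ E ⊓ scale (1 + l)⁻¹ E = E ⊓ (scale l⁻¹ E ⊔ scale (1 + l)⁻¹ E) :=
      le_antisymm (le_inf (sup_le inf_le_left inf_le_left)
        (sup_le_sup inf_le_right inf_le_right)) hcon
    have := congrArg orth heq
    rw [orth_sup, orth_inf, orth_inf, orth_inf, orth_sup, orth_scale (inv_ne_zero hl0),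
      orth_scale (inv_ne_zero hl1), inv_inv, inv_inv, ← hD] at this
    have hmem : l * a ∈ (D ⊔ scale l D) ⊓ (D ⊔ scale (1 + l) D) :=
      ⟨Submodule.mem_sup_right (mem_scale.2 ⟨a, ha, rfl⟩), Submodule.mem_sup.2
        ⟨a, ha, (1 + l) * a, mem_scale.2 ⟨a, ha, rfl⟩, by linear_combination a * h2F⟩⟩
    rw [this, Submodule.mem_sup] at hmem
    obtain ⟨d, hd, x, hx, hdx⟩ := hmem
    obtain ⟨hxl, hxn⟩ := Submodule.mem_inf.1 hx
    have hd0 : d = 0 := by
      rw [← Submodule.mem_bot (R := ZMod 2), ← hbot]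
      refine Submodule.mem_inf.2 ⟨hd, ?_⟩
      rw [show d = l * a - x by linear_combination hdx]
      exact sub_mem (mem_scale.2 ⟨a, ha, rfl⟩) hxl
    rw [hd0, zero_add] at hdx
    apply hav
    rw [show a = (1 + l) * a - x by linear_combination hdx]
    exact sub_mem (mem_scale.2 ⟨a, ha, rfl⟩) hxn

end CfsgLib.BinarySuzuki
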