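import Cfsg.Agent.BinarySuzuki.Common
import Cfsg.Agent.BinarySuzuki.Field

/-!
Non-trivial subgroups of the point stabiliser other than the centre do not give binary actions.
-/

set_option autoImplicit false

open scoped Matrix

namespace CfsgLib.BinarySuzuki

open CfsgLib.Suzuki CfsgLib.BinaryPSL

variable {F : Type*} [Field F] {θ : F →+* F} [CharP F 2] [Finite F]

theorem sz_two_identity (hT : TitsEndo θ) :
    wElt hT * uElt hT 0 1 * wElt hT * (uElt hT 0 1 * wElt hT * uElt hT 1 1 * wElt hT * uElt hT 0 1) =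
      uElt hT 1 0 := by
  refine Subtype.ext (Subtype.ext ?_)
  show (wMat * uMat θ 0 1 * wMat * (uMat θ 0 1 * wMat * uMat θ 1 1 * wMat * uMat θ 0 1) :
    Matrix.SpecialLinearGroup (Fin 4) F).1 = (uMat θ 1 0).1
  simp only [Matrix.SpecialLinearGroup.coe_mul, uMat_coe, wMat_coe]
  ext i j
  fin_cases i <;> fin_cases j <;>
    simp [Matrix.mul_apply, Fin.sum_univ_four, ovF, CharTwo.add_self_eq_zero]
  all_goals grind [CharTwo.two_eq_zero]

/-- An element of the point stabiliser fixing an affine point is a conjugate torus element. -/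
theorem exists_of_fix_pt (hT : TitsEndo θ) {x : grp θ} (hx : x ∈ stabInf θ) {a b : F}
    (h : x • pt θ a b = pt θ a b) : ∃ t, x = uElt hT a b * tElt hT t * (uElt hT a b)⁻¹ := by
  obtain ⟨t, ht⟩ := exists_tElt_of_fix hT (x := (uElt hT a b)⁻¹ * x * uElt hT a b)
    (mul_mem (mul_mem (inv_mem (uGrp_le_stabInf hT (uElt_mem hT a b))) hx)
      (uGrp_le_stabInf hT (uElt_mem hT a b)) : _ ∈ stabInf θ)
    (by rw [mul_smul, mul_smul, uElt_smul_pt_zero, h, inv_smul_eq_iff, uElt_smul_pt_zero])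
  exact ⟨t, by rw [← ht]; group⟩

theorem not_isBinary_four (hT : TitsEndo θ) {H : Subgroup (grp θ)} (hH : H ≤ stabInf θ)
    (h10 : uElt hT 1 0 ∈ H) : ¬ IsBinary H := by
  have h01 : uElt hT 0 1 ∈ H := by
    have := mul_mem h10 h10
    rwa [uElt_mul, CharTwo.add_self_eq_zero, map_one, mul_one, add_zero, zero_add] at this
  have h11 : uElt hT 1 1 ∈ H := by
    have := mul_mem h10 h01
    rwa [uElt_mul, map_one, mul_zero, add_zero, zero_add, add_zero] at this
  have hw : (wElt hT)⁻¹ = wElt hT := inv_eq_of_mul_eq_one_right (wElt_mul_self hT)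
  refine not_isBinary_of_triple ⟨wElt hT, trivial, uElt hT 0 1 * wElt hT, trivial,
    wElt hT * uElt hT 0 1 * wElt hT,
    uElt hT 0 1 * wElt hT * uElt hT 1 1 * wElt hT * uElt hT 0 1, ?_, ?_, ?_, ?_⟩
  · convert h01 using 1
    rw [hw]
    simp only [← mul_assoc, wElt_mul_self, one_mul]
    rw [mul_assoc, wElt_mul_self, mul_one]
  · convert h11 using 1
    rw [mul_inv_rev, uElt_self_inv, hw]
    calc _ = wElt hT * (uElt hT 0 1 * uElt hT 0 1) * wElt hT * uElt hT 1 1 * wElt hT *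
          (uElt hT 0 1 * uElt hT 0 1) * wElt hT := by group
      _ = _ := by rw [uElt_central_sq]; simp [wElt_mul_self, mul_assoc]
  · rw [sz_two_identity]; exact h10
  · rw [sz_two_identity]
    intro x hx y hy hxg hyk he
    have fixes : ∀ (g z : grp θ) (p q : F), g • (pInf : Projectivization F (Fin 4 → F)) = pt θ p q →
        g⁻¹ * z * g ∈ H → z • pt θ p q = pt θ p q := by
      intro g z p q hg hz
      have := hH hz
      rw [MulAction.mem_stabilizer_iff, mul_smul, mul_smul, hg, inv_smul_eq_iff, hg] at this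
      exact this
    obtain ⟨t, rfl⟩ := exists_of_fix_pt hT (hH hx) (fixes _ x 0 0 (wMat_smul_pInf θ) hxg)
    obtain ⟨s, rfl⟩ := exists_of_fix_pt hT (hH hy) (fixes _ y 0 1 (by
      rw [mul_smul, show wElt hT • (pInf : Projectivization F (Fin 4 → F)) = pt θ 0 0 from
        wMat_smul_pInf θ, uElt_smul_pt_zero]) hyk)
    rw [uElt_zero, one_mul, inv_one, mul_one, uElt_self_inv,
      show tElt hT t * (uElt hT 0 1 * tElt hT s * uElt hT 0 1) =
        uElt hT 0 0 * tElt hT t * (uElt hT 0 1 * tElt hT s) * (uElt hT 0 1 * tElt hT 1) by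
          rw [uElt_zero, tElt_one]; group,
      borel_mul, borel_mul] at he
    have := (eq_of_mul_eq hT (he.trans (show uElt hT 1 0 = uElt hT 1 0 * tElt hT 1 by
      rw [tElt_one, mul_one]))).1
    simp at this

/-- Elements with trivial translation part after conjugation. -/
theorem not_isBinary_split (hT : TitsEndo θ) {H : Subgroup (grp θ)} (hZ : cGrp hT ≤ H)
    {t : Fˣ} (ht : t ≠ 1) (htH : tElt hT t ∈ H)
    (hform : ∀ x ∈ H, ∃ b s, x = uElt hT 0 b * tElt hT s) : ¬ IsBinary H := by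
  have key : ∀ (c : F), c ≠ 0 → ∀ x ∈ H, (uElt hT c 0)⁻¹ * x * uElt hT c 0 ∈ H → x ∈ uGrp hT := by
    intro c hc x hx hxc
    obtain ⟨b, s, rfl⟩ := hform x hx
    obtain ⟨b', s', h'⟩ := hform _ hxc
    obtain ⟨e, he⟩ := conj_borel hT 0 b' c 0 s'
    rw [← h', show uElt hT c 0 * ((uElt hT c 0)⁻¹ * (uElt hT 0 b * tElt hT s) * uElt hT c 0) *
      (uElt hT c 0)⁻¹ = uElt hT 0 b * tElt hT s by group] at he
    obtain ⟨h1, -, rfl⟩ := eq_of_mul_eq hT he
    rw [eq_one_of_theta hT hc (s := s) (by simpa using h1.symm), tElt_one, mul_one]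
    exact uElt_mem hT 0 b
  have hθt : θ (t : F) ≠ 0 := (map_ne_zero θ).2 t.ne_zero
  have hconj : ∀ c : F, ∃ e, uElt hT c 0 * tElt hT t * (uElt hT c 0)⁻¹ =
      uElt hT (c + θ t * c) e * tElt hT t := fun c => by
    obtain ⟨e, he⟩ := conj_borel hT 0 0 c 0 t
    exact ⟨e, by simpa [uElt_zero] using he⟩
  obtain ⟨e1, he1⟩ := hconj (θ t)
  obtain ⟨e2, he2⟩ := hconj 1
  have hprod : ∃ e, uElt hT (θ t) 0 * tElt hT t * (uElt hT (θ t) 0)⁻¹ *
      (uElt hT 1 0 * tElt hT t * (uElt hT 1 0)⁻¹) = uElt hT 0 e * tElt hT (t * t) := by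
    rw [he1, he2, borel_mul]
    refine ⟨_, congrArg (fun a => uElt hT a _ * tElt hT (t * t)) ?_⟩
    linear_combination (θ (t : F) + θ t * θ t) * (two_eq_zero : (2 : F) = 0)
  obtain ⟨e, he⟩ := hprod
  refine not_isBinary_of_triple ⟨uElt hT (θ t) 0, trivial, uElt hT 1 0, trivial,
    uElt hT (θ t) 0 * tElt hT t * (uElt hT (θ t) 0)⁻¹,
    uElt hT 1 0 * tElt hT t * (uElt hT 1 0)⁻¹, ?_, ?_, ?_, ?_⟩
  · convert htH using 1; group
  · convert htH using 1; group
  · rw [he, ← tElt_mul]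
    exact mul_mem (hZ (uElt_mem_cGrp hT e)) (mul_mem htH htH)
  · intro x hx y hy hxg hyk heq
    rw [he] at heq
    exact unit_sq_ne_one ht (torus_eq_one hT (heq ▸
      mul_mem (key _ hθt x hx hxg) (key _ one_ne_zero y hy hyk)))

theorem not_isBinary_mixed (hT : TitsEndo θ) {H : Subgroup (grp θ)} (hH : H ≤ stabInf θ)
    (hU : ∀ x ∈ H, x ∈ uGrp hT → x ∈ cGrp hT) {h0 : grp θ} (hh0 : h0 ∈ H) (h0U : h0 ∉ uGrp hT) :
    ¬ IsBinary H := by
  obtain ⟨a0, b0, t, rfl⟩ := exists_of_mem_stabInf hT (hH hh0)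
  have ht : t ≠ 1 := fun e => h0U (by rw [e, tElt_one, mul_one]; exact uElt_mem hT a0 b0)
  by_cases hZ : cGrp hT ≤ H
  · set c := a0 / (1 + θ t) with hc
    have hne : 1 + θ (t : F) ≠ 0 := fun e =>
      ht (Units.ext (θ.injective (by rw [Units.val_one, map_one]; exact (CharTwo.add_eq_zero.1 e).symm)))
    obtain ⟨e, he⟩ := conj_borel hT a0 b0 c 0 t
    rw [show c + a0 + θ t * c = 0 by
      rw [hc]; field_simp; linear_combination a0 * (1 + θ (t : F)) * (two_eq_zero : (2 : F) = 0)] at he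
    set g := uElt hT c 0
    have hg : g ∈ stabInf θ := uGrp_le_stabInf hT (uElt_mem hT c 0)
    rw [← isBinary_conj_iff g]
    set H' := H.map (MulAut.conj g).toMonoidHom
    have hZ' : cGrp hT ≤ H' := by
      rw [← map_cGrp_of_mem (hT := hT) hg]; exact Subgroup.map_mono hZ
    have hmem : uElt hT 0 e * tElt hT t ∈ H' := by
      rw [← he, mem_map_conj]
      convert hh0 using 1; group
    have htH : tElt hT t ∈ H' := by
      have := mul_mem (inv_mem (hZ' (uElt_mem_cGrp hT e))) hmem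
      rwa [inv_mul_cancel_left] at this
    refine not_isBinary_split hT hZ' ht htH fun x hx => ?_
    have hxs : x ∈ stabInf θ := by
      have := hH (mem_map_conj.1 hx)
      simpa [mul_assoc] using mul_mem (mul_mem hg this) (inv_mem hg)
    obtain ⟨a, b, s, rfl⟩ := exists_of_mem_stabInf hT hxs
    suffices a = 0 by subst this; exact ⟨b, s, rfl⟩
    obtain ⟨f, hf⟩ := conj_borel hT 0 0 a b t
    have hcomm : uElt hT (a + 0 + θ t * a) f ∈ H' := by
      have h := mul_mem (mul_mem (mul_mem hx htH) (inv_mem hx)) (inv_mem htH)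
      convert h using 1
      rw [uElt_zero, one_mul] at hf
      rw [show uElt hT a b * tElt hT s * tElt hT t * (uElt hT a b * tElt hT s)⁻¹ * (tElt hT t)⁻¹ =
        uElt hT a b * (tElt hT s * tElt hT t * (tElt hT s)⁻¹) * (uElt hT a b)⁻¹ * (tElt hT t)⁻¹ by group,
        tElt_inv, tElt_mul, tElt_mul, show s * t * s⁻¹ = t by rw [mul_comm s t, mul_inv_cancel_right],
        hf, mul_assoc, mul_inv_cancel, mul_one]
    have hu : uElt hT (a + 0 + θ t * a) f ∈ cGrp hT := by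
      have h1 := mem_map_conj.1 hcomm
      have h2 := hU _ h1 (by
        have := conj_mem_uGrp hT (inv_mem hg) (uElt_mem hT (a + 0 + θ t * a) f)
        simpa [mul_assoc] using this)
      simpa [mul_assoc] using conj_mem_cGrp hg h2
    obtain ⟨f', hf'⟩ := mem_cGrp.1 hu
    by_contra ha
    exact ht (eq_one_of_theta hT ha (s := t) (by simpa using ((uElt_inj hT).1 hf').1))
  · have hout : ∀ {a b : F} {s : Fˣ}, s ≠ 1 → uElt hT a b * tElt hT s ∉ cGrp hT := fun hs h =>
      hs (torus_eq_one hT (cGrp_le_uGrp hT h))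
    refine not_isBinary_of_frobenius (U := cGrp hT) (c₁ := uElt hT a0 b0 * tElt hT t)
      (c₂ := uElt hT a0 b0 * tElt hT t) ?_ (fun h hh u hu => conj_mem_cGrp (hH hh) hu) ?_ hZ
      hh0 (hout ht) hh0 (hout ht) ?_
    · intro u hu v hv
      obtain ⟨b, rfl⟩ := mem_cGrp.1 hu
      obtain ⟨b', rfl⟩ := mem_cGrp.1 hv
      exact uElt_central hT 0 b b'
    · intro h hh hhU u hu hcomm
      obtain ⟨b, rfl⟩ := mem_cGrp.1 hu
      by_cases hb : b = 0
      · rw [hb, uElt_zero]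
      · exact absurd (hU h hh (mem_uGrp_of_commute hT hb hcomm)) hhU
    · rw [borel_mul]
      exact hout (unit_sq_ne_one ht)

theorem not_isBinary_elementary (hT : TitsEndo θ) {H : Subgroup (grp θ)} (hH : H ≤ cGrp hT)
    (h0 : H ≠ ⊥) (h1 : H ≠ cGrp hT) : ¬ IsBinary H := by
  letI := ZMod.algebra F 2
  let E : Submodule (ZMod 2) F := AddSubgroup.toZModSubmodule 2
    { carrier := {b | uElt hT 0 b ∈ H}
      zero_mem' := by show uElt hT 0 0 ∈ H; rw [uElt_zero]; exact one_mem H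
      add_mem' := fun {b c} hb hc => by
        have h := H.mul_mem hb hc
        rw [uElt_mul] at h
        simpa using h
      neg_mem' := fun {b} hb => by
        show uElt hT 0 (-b) ∈ H
        rwa [CharTwo.neg_eq] }
  have hE : ∀ b, b ∈ E ↔ uElt hT 0 b ∈ H := fun b => Iff.rfl
  obtain ⟨μ, ν, hμ, hν, a, ha, hna⟩ := exists_nondistrib E
    (fun e => h0 ((Subgroup.eq_bot_iff_forall _).2 fun x hx => by
      obtain ⟨b, rfl⟩ := mem_cGrp.1 (hH hx)
      have : b ∈ E := hx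
      rw [e, Submodule.mem_bot] at this
      rw [this, uElt_zero]))
    (fun e => h1 (le_antisymm hH fun x hx => by
      obtain ⟨b, rfl⟩ := mem_cGrp.1 hx
      exact (hE b).1 (e ▸ Submodule.mem_top)))
  obtain ⟨haE, hsum⟩ := Submodule.mem_inf.1 ha
  obtain ⟨p, hp, q, hq, rfl⟩ := Submodule.mem_sup.1 hsum
  obtain ⟨b, hb, rfl⟩ := mem_scale.1 hp
  obtain ⟨c, hc, rfl⟩ := mem_scale.1 hq
  obtain ⟨t, ht⟩ := mu_surjective hT hμ
  obtain ⟨s, hs⟩ := mu_surjective hT hν
  have conj_tc : ∀ (r : Fˣ) (d : F),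
      tElt hT r * uElt hT 0 d * (tElt hT r)⁻¹ = uElt hT 0 ((r : F) ^ 2 * θ r * d) := fun r d => by
    rw [tElt_conj_uElt, mul_zero]
  have back : ∀ (r : Fˣ) (x : grp θ), x ∈ H → (tElt hT r)⁻¹ * x * tElt hT r ∈ H →
      ∃ d, x = uElt hT 0 d ∧ d ∈ E ⊓ scale ((r : F) ^ 2 * θ r) E := by
    intro r x hx hxr
    obtain ⟨d1, hd1⟩ := mem_cGrp.1 (hH hxr)
    have hx' : x = uElt hT 0 ((r : F) ^ 2 * θ r * d1) := by
      rw [← conj_tc, ← hd1]; group
    exact ⟨_, hx', Submodule.mem_inf.2 ⟨(hE _).2 (hx' ▸ hx),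
      mem_scale.2 ⟨d1, (hE _).2 (hd1 ▸ hxr), rfl⟩⟩⟩
  have hbc : uElt hT 0 (μ * b) * uElt hT 0 (ν * c) = uElt hT 0 (μ * b + ν * c) := by
    rw [uElt_mul]; simp
  refine not_isBinary_of_triple ⟨tElt hT t, trivial, tElt hT s, trivial, uElt hT 0 (μ * b),
    uElt hT 0 (ν * c), ?_, ?_, ?_, ?_⟩
  · rw [← ht, ← conj_tc]
    convert (hE b).1 hb using 1; group
  · rw [← hs, ← conj_tc]
    convert (hE c).1 hc using 1; group
  · rw [hbc]; exact (hE _).1 haE
  · intro x hx y hy hxg hyk he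
    obtain ⟨d, rfl, hd⟩ := back t x hx hxg
    obtain ⟨d', rfl, hd'⟩ := back s y hy hyk
    rw [ht] at hd
    rw [hs] at hd'
    rw [hbc, uElt_mul, uElt_inj] at he
    refine hna (Submodule.mem_sup.2 ⟨d, hd, d', hd', ?_⟩)
    simpa using he.2

section Main

variable {F : Type*} [Field F] [Fintype F] [CharP F 2] {m : ℕ}

/-- Subgroups of the point stabiliser. -/
theorem not_isBinary_of_le_stabInf (hm : 1 ≤ m) (hF : Fintype.card F = 2 ^ (2 * m + 1))
    {H : Subgroup (grp (theta F m))} (hH : H ≤ stabInf (theta F m)) (h0 : H ≠ ⊥)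
    (h1 : H ≠ cGrp (titsEndo_theta hm hF)) : ¬ IsBinary H := by
  set hT := titsEndo_theta hm hF
  by_cases hex : ∃ x ∈ H, x ∈ uGrp hT ∧ x ∉ cGrp hT
  · obtain ⟨x, hx, ⟨a, b, rfl⟩, hxc⟩ := hex
    have ha : a ≠ 0 := fun e => hxc (e ▸ uElt_mem_cGrp hT b)
    have ho := orderOf_uElt_four hT b ha
    obtain ⟨y, hy⟩ := four_normal_form hm hF ho
    obtain ⟨z, hz, hzy⟩ : ∃ z ∈ H, z ∈ uGrp hT ∧ z ≠ 1 ∧ y⁻¹ * z * y = uElt hT 1 0 := by
      have hne : uElt hT a b ≠ 1 := fun e => by rw [e, orderOf_one] at ho; omega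
      rcases hy with hy | hy
      · exact ⟨_, hx, uElt_mem hT a b, hne, hy⟩
      · exact ⟨_, inv_mem hx, inv_mem (uElt_mem hT a b), inv_ne_one.2 hne, hy⟩
    obtain ⟨hzU, hz1, hzy⟩ := hzy
    have hys : y ∈ stabInf (theta F m) :=
      mem_stabInf_of_conj hT hzU hz1 (hzy ▸ uElt_mem hT 1 0)
    rw [← isBinary_conj_iff y⁻¹]
    refine not_isBinary_four hT ?_ ?_
    · intro w hw
      have := hH (mem_map_conj.1 hw)
      simpa [mul_assoc] using mul_mem (mul_mem (inv_mem hys) this) hys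
    · rw [mem_map_conj, ← hzy]
      simpa [mul_assoc] using hz
  · push Not at hex
    by_cases hodd : ∃ h ∈ H, h ∉ uGrp hT
    · obtain ⟨h, hh, hhU⟩ := hodd
      exact not_isBinary_mixed hT hH hex hh hhU
    · push Not at hodd
      exact not_isBinary_elementary hT (fun x hx => hex x hx (hodd x hx)) h0 h1

end Main

end CfsgLib.BinarySuzuki
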